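import Cfsg.Agent.Lib.Np.Four
import Cfsg.Agent.Lib.PSL2.Count

/-!
# The case where the Sylow subgroup is not self-centralizing, second part
-/

set_option autoImplicit false

namespace Cfsg.Lib.Np

open Cfsg.Lib.Char Cfsg.Lib.Small Cfsg.Lib.Cyc Cfsg.Lib.Clifford Subgroup Finset
open scoped MatrixGroups ComplexConjugate

theorem norm_sq_ge {z w c : ℂ} {p : ℝ} (hp : 0 ≤ p) (hc : ‖c‖ = 1) (h : p * z = w - c) :
    (p ^ 2 - p) * ‖z‖ ^ 2 - p + 1 ≤ ‖w‖ ^ 2 := by
  have h1 := congrArg norm h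
  have h2 := abs_norm_sub_norm_le (w - c) (-c)
  rw [norm_mul, Complex.norm_real, Real.norm_of_nonneg hp] at h1
  rw [← h1, norm_neg, hc, sub_neg_eq_add, sub_add_cancel] at h2
  have h3 := pow_le_pow_left₀ (abs_nonneg _) h2 2
  rw [sq_abs] at h3
  nlinarith [mul_nonneg hp (sq_nonneg (‖z‖ - 1))]

theorem eq_of_norm_add_one {z : ℂ} {A : ℝ} (h1 : ‖z‖ ≤ A) (h2 : ‖z + 1‖ = A + 1) : z = A := by
  have h3 := pow_le_pow_left₀ (norm_nonneg _) h1 2
  have h4 := congrArg (· ^ 2) h2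
  have h5 := (Complex.re_le_norm z).trans h1
  simp only [Complex.sq_norm, Complex.normSq_apply, Complex.add_re, Complex.add_im, Complex.one_re,
    Complex.one_im] at h3 h4
  have h6 : z.re = A := by nlinarith
  refine Complex.ext (by simpa) ?_
  rw [h6] at h3
  simpa using (show z.im * z.im = 0 by nlinarith [mul_self_nonneg z.im])

theorem five_arith {p a b c α N X Z : ℝ} (hp : p = a * b + 1) (ha : a = 3 ∨ 4 ≤ a) (hab : a ≤ b)
    (hb : 4 ≤ b) (hc : 0 < c) (h1 : α + 1 ≤ c) (h2 : N + α + 1 = a * c)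
    (h3 : X + N * (p - 1) ^ 2 ≤ a * c * (p * (a * b + a - b))) (h4 : Z ^ 2 ≤ α * X) (hX : 0 ≤ X)
    (h5 : N * (p - 1) + a * c - 1 - p * c ≤ Z) (h6 : 1 ≤ c) : False := by
  have ha3 : 3 ≤ a := by rcases ha with h | h <;> linarith
  have hp0 : 13 ≤ p := by nlinarith
  have h7 : (a - 1) * c ≤ N := by linarith
  have h8 : X ≤ c * ((a ^ 2 + a - 1) * p) := by
    have := mul_le_mul_of_nonneg_right h7 (sq_nonneg (p - 1))
    have h8 : a * c * (p * (a * b + a - b)) - (a - 1) * c * (p - 1) ^ 2 =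
      c * ((a ^ 2 + a - 1) * p) - c * (a - 1) := by rw [hp]; ring
    nlinarith
  have h9 : (a - 2) * c * p ≤ Z := by
    nlinarith [mul_le_mul_of_nonneg_right h7 (show 0 ≤ p - 1 by linarith)]
  have h10 := pow_le_pow_left₀ (by have : 0 ≤ a - 2 := by linarith
                                   positivity) h9 2
  have h11 : α * X ≤ c * (c * ((a ^ 2 + a - 1) * p)) :=
    (mul_le_mul_of_nonneg_right (by linarith) hX).trans (mul_le_mul_of_nonneg_left h8 hc.le)
  have h12 : (a - 2) ^ 2 * p ≤ a ^ 2 + a - 1 := le_of_mul_le_mul_left (a := c ^ 2 * p)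
    (by nlinarith) (by positivity)
  rcases ha with rfl | h
  · nlinarith
  · nlinarith [mul_le_mul_of_nonneg_right (show 4 ≤ (a - 2) ^ 2 by nlinarith) (show 0 ≤ p by linarith)]

variable {G : Type*} [Group G] [Finite G] {p e t a b m l r : ℕ}
  {S Y A B C D : Finset (IrrCharacter G)}
  {s : IrrCharacter G → ℤ} {δ : ℤ} {χ θ : IrrCharacter G} {g x y u v : G}

namespace NP

variable (h : NP p e t a b m S Y A B C D s δ θ)
include h

theorem sum_norm_le (v : G) : ∑ χ ∈ A, ‖(χ : G → ℂ) v‖ ^ 2 + ∑ χ ∈ B, ‖(χ : G → ℂ) v‖ ^ 2 +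
    ∑ χ ∈ D, ‖(χ : G → ℂ) v‖ ^ 2 ≤ Nat.card (centralizer ({v} : Set G)) := by
  have h1 := sum_le_sum_of_subset_of_nonneg (f := fun χ : IrrCharacter G => ‖(χ : G → ℂ) v‖ ^ 2)
    (subset_univ S) fun _ _ _ => sq_nonneg _
  have h2 := sum_nonneg (s := C) (f := fun χ : IrrCharacter G => ‖(χ : G → ℂ) v‖ ^ 2)
    fun _ _ => sq_nonneg _
  rw [sum_irr_norm_sq, h.split] at h1
  linarith [sq_nonneg ‖(irrOne G : G → ℂ) v‖]

/-- Some element of order `l` has a large centralizer. -/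
theorem exists_big (hx : orderOf x = p) (hc : Nat.card (centralizer ({x} : Set G)) ≠ p)
    (hr : r + b = a * b + a) (hl : l.Prime) (hlp : l ≠ p) (h1 : l ∣ r)
    (h2 : l ∣ Nat.card (centralizer ({x} : Set G)))
    (h3 : ∀ v ∈ centralizer ({x} : Set G), v ≠ 1 → ¬ p ∣ orderOf v →
      Nat.card (centralizer ({v} : Set G)) ∣ e * (p * r)) :
    ∃ v ∈ centralizer ({x} : Set G), orderOf v = l ∧
      Nat.card (centralizer ({v} : Set G)) = e * (p * r) := by
  classical
  have := Fintype.ofFinite (centralizer ({x} : Set G))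
  have := Fact.mk hl
  by_contra! h4
  obtain ⟨h5, -, h6, b', h7, h8, h9, -⟩ := h.shape hx hc
  let T : Finset (centralizer ({x} : Set G)) := {v | orderOf v = l}
  have t1 : ∀ v ∈ T, orderOf (v : G) = l := fun v hv => (orderOf_coe v).trans (mem_filter.1 hv).2
  have t2 : ∀ v ∈ T, ¬ p ∣ orderOf (v : G) := fun v hv h10 => hlp
    ((Nat.prime_dvd_prime_iff_eq h.prime hl).1 (t1 v hv ▸ h10)).symm
  have hl' := Nat.prime_iff_prime_int.1 hl
  have hp : (p : ℝ) = a * b + 1 := by exact_mod_cast h.hp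
  have hp5 : (5 : ℝ) ≤ p := by exact_mod_cast h.five_le
  have t3 : ∀ χ ∈ S, ∀ k : ℤ, charDegree (χ : G → ℂ) - s χ = p * k → ¬ (l : ℤ) ∣ k →
      #T * ((p : ℝ) - 1) ^ 2 ≤ ∑ v ∈ T, ‖(χ : G → ℂ) v‖ ^ 2 := fun χ hχ k h10 h11 => by
    obtain ⟨φ, h12, h13⟩ := h.exists_iso hχ hx
    have h14 := h12.isGeneralizedCharacter.card_le_sum_norm_sq T (fun j hj v hv => mem_filter.2
      ⟨mem_univ _, by rw [(hj.symm.coprime_dvd_left (orderOf_dvd_natCard v)).orderOf_pow,
        (mem_filter.1 hv).2]⟩) fun v hv h14 => by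
      have h15 := h13 v (t2 v hv)
      rw [h14, mul_zero, eq_comm, sub_eq_zero] at h15
      have h16 := int_dvd_sub_of_pow_eq_one χ.2.isGeneralizedCharacter (p := l) (k := 1)
        (by rw [pow_one, ← t1 v hv, pow_orderOf_eq_one]) h15
        (n := charDegree (χ : G → ℂ)) (by simpa using χ.2.apply_one_eq)
      exact h11 ((hl'.dvd_or_dvd (h10 ▸ h16)).resolve_left fun h17 => hlp
        ((Nat.prime_dvd_prime_iff_eq hl h.prime).1 (by exact_mod_cast h17)))
    have h15 := sum_le_sum fun v (hv : v ∈ T) => norm_sq_ge (p := p) (c := s χ) (z := φ v)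
      (w := (χ : G → ℂ) v) p.cast_nonneg (by rcases h.signS χ hχ with e | e <;> simp [e]) (by simpa using h13 v (t2 v hv))
    simp only [sum_add_distrib, sum_sub_distrib, ← mul_sum, sum_const, nsmul_eq_mul] at h15
    nlinarith [mul_le_mul_of_nonneg_left h14 (show (0 : ℝ) ≤ p ^ 2 - p by nlinarith)]
  have h10 : (l : ℤ) ∣ (a - 1) * (b + 1) + 1 := by
    rw [show ((a : ℤ) - 1) * (b + 1) + 1 = r by zify at hr; linear_combination -hr]
    exact_mod_cast h1
  have t4 := card_nsmul_le_sum B _ _ fun χ hχ => t3 χ (h.hB χ hχ).1 (a - 1) (by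
    rw [(h.hB χ hχ).2.1, (h.hB χ hχ).2.2]; push_cast; rw [h.mz, h.pz]; ring)
    fun h11 => hl'.not_dvd_one ((dvd_add_right (h11.mul_right _)).1 h10)
  have t5 := card_nsmul_le_sum D _ _ fun χ hχ => t3 χ (h.hD χ hχ).1 (b + 1) (by
    rw [(h.hD χ hχ).2.1, (h.hD χ hχ).2.2]; push_cast; rw [h.pz]; ring)
    fun h11 => hl'.not_dvd_one ((dvd_add_right (h11.mul_left _)).1 h10)
  have hr0 : 0 < r := by nlinarith [h.ab]
  have t6 := sum_le_card_nsmul T (fun v => 2 * (∑ χ ∈ B, ‖(χ : G → ℂ) v‖ ^ 2 +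
      ∑ χ ∈ D, ‖(χ : G → ℂ) v‖ ^ 2)) (e * (p * r)) fun v hv => by
    obtain ⟨c, hc⟩ := h3 v v.2 (fun e => hl.one_lt.ne (by rw [← t1 v hv, e, orderOf_one])) (t2 v hv)
    have h11 : 2 ≤ c := by
      rcases c with _ | _ | c
      · exact absurd hc (by have := h.pos; have := h.prime.pos; positivity)
      · exact absurd (by simpa using hc.symm) (h4 v v.2 (t1 v hv))
      · omega
    have h12 : (Nat.card (centralizer ({(v : G)} : Set G)) : ℝ) * 2 ≤ e * (p * r) := by
      exact_mod_cast hc ▸ Nat.mul_le_mul_left _ h11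
    linarith [h.sum_norm_le v, sum_nonneg (s := A)
      (f := fun χ : IrrCharacter G => ‖(χ : G → ℂ) v‖ ^ 2) fun _ _ => sq_nonneg _]
  rw [← mul_sum, sum_add_distrib, sum_comm, sum_comm (t := D)] at t6
  obtain ⟨v, hv⟩ := exists_prime_orderOf_dvd_card' l h2
  have t7 : (0 : ℝ) < #T := Nat.cast_pos.2 (card_pos.2 ⟨v, mem_filter.2 ⟨mem_univ _, hv⟩⟩)
  simp only [nsmul_eq_mul] at t4 t5 t6
  have t8 : 2 * ((#B + #D) * ((p : ℝ) - 1) ^ 2) ≤ e * (p * r) :=
    le_of_mul_le_mul_left (by linarith) t7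
  have h11 := h.cnt
  rw [h5, card_empty] at h11
  have h12 : ((a : ℝ) - 1) * b' ≤ #B + #D := by
    have : a * b' ≤ b' + (#B + #D) := by omega
    have : (a : ℝ) * b' ≤ b' + (#B + #D) := by exact_mod_cast this
    linarith
  have h13 : (r : ℝ) ≤ p - 1 := by
    have : r + 1 ≤ p := by have := h.hp; have := h.ab; omega
    have : (r : ℝ) + 1 ≤ p := by exact_mod_cast this
    linarith
  have h14 : (0 : ℝ) < b' := by exact_mod_cast h9.pos
  have h15 : (3 : ℝ) ≤ a := by exact_mod_cast h6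
  rw [h8] at t8
  push_cast at t8
  have h16 : 2 * ((a : ℝ) - 1) * (p - 1) ≤ a * p := le_of_mul_le_mul_left (a := (b' : ℝ) * (p - 1)) (by
    nlinarith [mul_le_mul_of_nonneg_right h12 (sq_nonneg ((p : ℝ) - 1)),
      mul_le_mul_of_nonneg_left h13 (show (0 : ℝ) ≤ a * b' * p by positivity)])
    (mul_pos h14 (by linarith))
  nlinarith

set_option maxHeartbeats 800000 in
theorem not_big (hx : orderOf x = p) (hc : Nat.card (centralizer ({x} : Set G)) ≠ p)
    (hr : r + b = a * b + a) (h1 : v ∈ centralizer ({x} : Set G)) (h2 : v ≠ 1)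
    (h3 : ¬ p ∣ orderOf v) (h4 : Nat.card (centralizer ({v} : Set G)) = e * (p * r))
    (h5 : (centralizer ({v} : Set G)).index = m * (p + a)) : False := by
  obtain ⟨h6, -, h7, b', h8, h9, h10, h11⟩ := h.shape hx hc
  have hR := (Nat.card_zpowers x).trans hx
  have hab := h.ab
  have hb : 4 ≤ b := by
    by_contra hb
    obtain rfl : b = 3 := by omega
    obtain rfl : a = 3 := by omega
    exact absurd (h.hp ▸ h.prime) (by norm_num)
  have hv := mem_centralizer_singleton_iff.1 h1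
  have hp : (p : ℝ) = a * b + 1 := by exact_mod_cast h.hp
  have hpC : (p : ℂ) = a * b + 1 := by exact_mod_cast h.hp
  have hp0 : (p : ℂ) ≠ 0 := Nat.cast_ne_zero.2 h.prime.ne_zero
  have ha0 : (a : ℂ) ≠ 0 := Nat.cast_ne_zero.2 (by omega)
  have hb0 : (b : ℂ) ≠ 0 := Nat.cast_ne_zero.2 (by omega)
  have c1 : ∀ χ ∈ B, (χ : G → ℂ) v = 1 - p := fun χ hχ => by
    obtain ⟨φ, h12, h13⟩ := h.exists_iso (h.hB χ hχ).1 hx
    have h14 := h13 ⟨v, h1⟩ h3
    have h15 := h13 1 h.not_dvd_one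
    rw [(h.hB χ hχ).2.1] at h14 h15
    have h16 : (m : ℂ) = a * b + 1 - b := by exact_mod_cast h.mz
    have h17 : φ 1 = a - 1 := mul_left_cancel₀ hp0 (by
      rw [h15, OneMemClass.coe_one, χ.2.apply_one_eq, (h.hB χ hχ).2.2]
      push_cast; rw [h16, hpC]; ring)
    have h18 := isIntegral_of_index χ.2 (y := v) (c := 1) (by omega) (h.hB χ hχ).2.2
      (by rw [h5, mul_one]) (h.coprime_a.coprime_dvd_right (dvd_mul_left _ _))
    rcases (h12.add isCharacter_one).eq_zero_or_norm_eq_of_isIntegral_div (g := ⟨v, h1⟩) (by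
      rw [Pi.add_apply, Pi.add_apply, h17, sub_add_cancel,
        show (φ ⟨v, h1⟩ + 1) / a = (χ : G → ℂ) v / a - b * φ ⟨v, h1⟩ by
        push_cast at h14
        field_simp
        linear_combination h14 - φ ⟨v, h1⟩ * hpC]
      exact h18.sub ((isIntegral_algebraMap (x := (b : ℤ))).mul (h12.isIntegral _))) with h19 | h19
    · simp only [Pi.add_apply] at h19
      push_cast at h14
      linear_combination p * h19 - h14
    · refine (h2 (mem_bot.1 ((h.charKer_eq_bot h.core (.inl (h.hB χ hχ).1) ?_).le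
        (χ.2.isCharacter.mem_charKer_iff.2 ?_)))).elim
      · rw [(h.hB χ hχ).2.2]; nlinarith [h.m_pos]
      have h20 := h12.norm_le ⟨v, h1⟩
      have h21 : ‖(a : ℂ) - 1‖ = a - 1 := by
        rw [show (a : ℂ) - 1 = ((a - 1 : ℝ) : ℂ) by simp, Complex.norm_real, Real.norm_of_nonneg]
        exact sub_nonneg.2 (by exact_mod_cast (by omega : 1 ≤ a))
      rw [h17, h21] at h20
      have h22 := eq_of_norm_add_one h20 (by simpa [h17] using h19)
      rw [h22] at h14
      rw [h17, OneMemClass.coe_one] at h15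
      push_cast at h14
      linear_combination h15 - h14
  have hN := (centralizer_zpowers x).ge.trans (centralizer_le_normalizer _)
  have c2 : ∀ χ ∈ D, (χ : G → ℂ) v = p - 1 ∨ (p : ℝ) * b - (p - 1) ≤ ‖(χ : G → ℂ) v‖ :=
    fun χ hχ => by
      have h12 := isCharacter_avg (A := zpowers x) χ.2.isCharacter hN
      have h13 := h.mul_avg (h.hD χ hχ).1 hx hv h3
      have h14 : avg (χ : G → ℂ) (zpowers x) 1 = b := by
        rw [avg_one χ.2.isCharacter, h.fixD hχ hR]
      rw [(h.hD χ hχ).2.1] at h13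
      push_cast at h13
      have h18 := isIntegral_of_index χ.2 (y := v) (c := 1) (k := m) (by omega) (h.hD χ hχ).2.2
        (by rw [h5]; ring) (Nat.coprime_of_dvd fun l hl h15 h16 => h.ndvd_b hl h15 (h16.mul_left p))
      refine (h12.eq_zero_or_norm_eq_of_isIntegral_div (g := ⟨v, h1⟩) (by
        rw [OneMemClass.coe_one, h14, show avg (χ : G → ℂ) (zpowers x) v / b = (χ : G → ℂ) v / b -
          a * (avg (χ : G → ℂ) (zpowers x) v + 1) by
            field_simp
            linear_combination h13 - (avg (χ : G → ℂ) (zpowers x) v + 1) * hpC]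
        exact h18.sub ((isIntegral_algebraMap (x := (a : ℤ))).mul
          ((h12.isIntegral ⟨v, h1⟩).add isIntegral_one)))).imp (fun h19 => ?_) fun h19 => ?_
      · simp only at h19
        rw [h19] at h13
        linear_combination -h13
      · simp only [OneMemClass.coe_one, h14, Complex.norm_natCast] at h19
        have h20 := (congrArg norm h13).trans_le (norm_add_le _ _)
        rw [norm_mul, h19, norm_mul, show (p : ℂ) - 1 = (a * b : ℕ) by simp [hpC]] at h20
        simp only [Complex.norm_natCast, norm_neg, norm_one] at h20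
        push_cast at h20
        linarith
  have h12 := h.sum_norm_le v
  have hn : ‖(p : ℂ) - 1‖ = p - 1 := by
    rw [show (p : ℂ) - 1 = (a * b : ℕ) by simp [hpC], Complex.norm_natCast, hp]; simp
  rw [sum_congr (s₁ := B) rfl (g := fun _ => ((p : ℝ) - 1) ^ 2) fun χ hχ => by
    rw [c1 χ hχ, norm_sub_rev, hn], sum_const, nsmul_eq_mul, h4, h9] at h12
  have h13 := h.cnt
  rw [h6, card_empty, h9] at h13
  have h14 : (#B + #D : ℝ) + #A + 1 = a * b' := by exact_mod_cast (by omega)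
  have h15 : (#A : ℝ) + 1 ≤ b' := by exact_mod_cast h10
  have h16 : (r : ℝ) = a * b + a - b := eq_sub_of_add_eq (by exact_mod_cast hr)
  have ha : (3 : ℝ) ≤ a := by exact_mod_cast h7
  have hb' : (4 : ℝ) ≤ b := by exact_mod_cast hb
  have hab' : (a : ℝ) ≤ b := by exact_mod_cast hab
  have h17 : (b' : ℝ) ≤ b := by exact_mod_cast h8 ▸ Nat.le_mul_of_pos_left _ h.t_pos
  have h18 : (0 : ℝ) ≤ #A := Nat.cast_nonneg _
  have h19 := sum_nonneg (s := A) (f := fun χ : IrrCharacter G => ‖(χ : G → ℂ) v‖ ^ 2)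
    fun _ _ => sq_nonneg _
  push_cast at h12
  rw [h16] at h12
  have hp1 : (13 : ℝ) ≤ p := by nlinarith
  have c3 : ∀ χ ∈ D, (χ : G → ℂ) v = p - 1 := fun ξ hξ => (c2 ξ hξ).resolve_right fun h20 => by
    classical
    have h21 := card_nsmul_le_sum (D.erase ξ) (fun χ => ‖(χ : G → ℂ) v‖ ^ 2) (((p : ℝ) - 1) ^ 2)
      fun χ hχ => by
        rcases c2 χ (mem_of_mem_erase hχ) with h21 | h21
        · rw [h21, hn]
        · exact pow_le_pow_left₀ (by linarith) (le_trans (by nlinarith) h21) 2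
    have h22 : (#(D.erase ξ) : ℝ) + 1 = #D := by exact_mod_cast card_erase_add_one hξ
    have h23 := pow_le_pow_left₀ (by nlinarith) h20 2
    rw [← add_sum_erase _ _ hξ] at h12
    rw [nsmul_eq_mul] at h21
    have h24 : ((a : ℝ) - 1) * b' * (p - 1) ^ 2 ≤ (#B + #D) * (p - 1) ^ 2 :=
      mul_le_mul_of_nonneg_right (by linarith) (sq_nonneg _)
    have h25 : (a : ℝ) * b' * (p * (a * b + a - b)) - (a - 1) * b' * (p - 1) ^ 2 =
      b' * ((a ^ 2 + a - 1) * p) - b' * (a - 1) := by rw [hp]; ring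
    have h26 : (b' : ℝ) * ((a ^ 2 + a - 1) * p) ≤ b * ((a ^ 2 + a - 1) * p) :=
      mul_le_mul_of_nonneg_right h17 (mul_nonneg (by nlinarith) (by linarith))
    have h27 : (a : ℝ) ^ 2 + a - 1 ≤ p * (b - 2) := by nlinarith
    have h28 := mul_le_mul_of_nonneg_left h27 (show (0 : ℝ) ≤ b * p by positivity)
    rw [← h22] at h24
    nlinarith
  rw [sum_congr (s₁ := D) rfl (g := fun _ => ((p : ℝ) - 1) ^ 2) fun χ hχ => by
    rw [c3 χ hχ, hn], sum_const, nsmul_eq_mul] at h12
  have h20 := h.reg2 h3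
  have h21 := mul_avgY h.toPB0 h.mem hx hv h3
  have h22 := (norm_avg_le θ.2.isCharacter (hN h1)).trans (Nat.cast_le.2 (h11 _ hR))
  have h23 : (δ : ℂ) * δ = 1 := by exact_mod_cast h.mul_self
  rw [sum_congr rfl c1, sum_congr rfl c3, h6, sum_const, sum_const, nsmul_eq_mul, nsmul_eq_mul,
    sum_empty] at h20
  rw [h9] at h21
  have h24 : (((#B + #D) * (p - 1) + a * b' - 1 : ℝ) : ℂ) = ∑ χ ∈ A, (χ : G → ℂ) v +
      δ * (p * avg (θ : G → ℂ) (zpowers x) v) := by
    push_cast at h21 ⊢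
    linear_combination -h20 - δ * h21 - a * b' * h23
  have h25 := (Complex.re_le_norm _).trans ((congrArg norm h24).trans_le (norm_add_le _ _))
  have h26 : ‖(δ : ℂ)‖ = 1 := by rcases h.sign with e | e <;> simp [e]
  rw [Complex.ofReal_re, norm_mul, norm_mul, h26, one_mul, Complex.norm_natCast] at h25
  refine five_arith (N := #B + #D) (α := #A) (c := b') (Z := ‖∑ χ ∈ A, (χ : G → ℂ) v‖) hp ?_ hab'
    hb' (by linarith) h15 h14 (by linarith) ((pow_le_pow_left₀ (norm_nonneg _) (norm_sum_le _ _)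
      2).trans sq_sum_le_card_mul_sum_sq) h19
    (by linarith [mul_le_mul_of_nonneg_left h22 p.cast_nonneg]) (by linarith)
  rcases Nat.eq_or_lt_of_le h7 with e | e
  · exact .inl (by exact_mod_cast e.symm)
  · exact .inr (by exact_mod_cast e)

end NP

end Cfsg.Lib.Np
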