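import Cfsg.Agent.Lib.Perm.Witt
import Cfsg.Agent.Lib.Small.Basic

/-!
# Centralizers of few Sylow subgroups of prime order intersect trivially
-/

set_option autoImplicit false

namespace Cfsg.Lib.Np

open Subgroup Finset Cfsg.Lib.Small
open scoped Pointwise

theorem geo_arith {p n k L : ℕ} (hn : n < p ^ 2) (h1 : n ≡ 1 [MOD p]) (h2 : L ≡ k [MOD p])
    (h3 : L * (p + 1) = n * k) (h4 : 1 + (p + 1) * (k - 1) ≤ L) (hk : 2 ≤ k) (hp : 2 ≤ p) :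
    k ∣ p + 1 ∧ L = 1 + (p + 1) * (k - 1) := by
  obtain ⟨k, rfl⟩ : ∃ j, k = j + 1 := ⟨k - 1, by omega⟩
  rw [Nat.add_sub_cancel] at *
  obtain ⟨r, hr⟩ := (Nat.modEq_iff_dvd.1 h1.symm)
  obtain ⟨j, hj⟩ := (Nat.modEq_iff_dvd.1 h2.symm)
  zify at *
  have hp0 : (0 : ℤ) < p := by omega
  have h5 : j * (p + 1) = (k + 1) * (r - 1) := mul_left_cancel₀ hp0.ne' (by
    linear_combination h3 - (p + 1) * hj + (k + 1) * hr)
  have h6 : r < p := by nlinarith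
  have h7 : (k : ℤ) ≤ j := by nlinarith
  have h8 : j < k + 1 := by nlinarith
  obtain rfl : j = k := by omega
  exact ⟨⟨p + 2 - r, by linear_combination -h5⟩, by linear_combination hj⟩

variable {G : Type*} [Group G] [Finite G] {p : ℕ} [hp : Fact p.Prime]

local notation "𝐂 " α:max => centralizer (((α : Sylow p G) : Subgroup G) : Set G)

omit [Finite G] hp in
theorem conj_mem_cent {g h : G} {α : Sylow p G} (hh : h ∈ 𝐂 α) : g * h * g⁻¹ ∈ 𝐂 (g • α) := by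
  rintro _ ⟨y, hy, rfl⟩
  have := hh y hy
  simp only [MulDistribMulAction.toMonoidEnd_apply, MulDistribMulAction.toMonoidHom_apply,
    MulAut.smul_def, MulAut.conj_apply]
  calc g * y * g⁻¹ * (g * h * g⁻¹) = g * (y * h) * g⁻¹ := by group
    _ = _ := by rw [this]; group

omit [Finite G] hp in
theorem smul_eq_of_cent {g : G} {α : Sylow p G} (h : g ∈ 𝐂 α) : g • α = α :=
  Sylow.smul_eq_iff_mem_normalizer.2 (centralizer_le_normalizer _ h)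

variable (G p) in
/-- The hypotheses of the trivial intersection theorem. -/
structure Geo : Prop where
  card : ∀ α : Sylow p G, Nat.card α = p
  lt : Nat.card (Sylow p G) < p ^ 2
  nsq : ¬ p ^ 2 ∣ Nat.card G
  norm : ∀ (α β : Sylow p G) (g : G) (l k : ℕ), l.Prime → l ≠ p → g ^ l ^ k = 1 → g ∈ 𝐂 α →
    g • β = β → g ∈ 𝐂 β
  faith : ∀ g : G, (∀ α : Sylow p G, g ∈ 𝐂 α) → g = 1

variable (p) in
open Classical in
/-- The Sylow subgroups centralized by `W`. -/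
noncomputable def ln (W : Subgroup G) : Finset (Sylow p G) :=
  have := Fintype.ofFinite (Sylow p G)
  {γ | W ≤ 𝐂 γ}

theorem mem_ln {W : Subgroup G} {γ : Sylow p G} : γ ∈ ln p W ↔ W ≤ 𝐂 γ := by simp [ln]

/-- The lines of the geometry. -/
def IsLn (w : ℕ) (Λ : Finset (Sylow p G)) : Prop :=
  ∃ α β : Sylow p G, α ≠ β ∧ Nat.card ↥(𝐂 α ⊓ 𝐂 β) = w ∧ Λ = ln p (𝐂 α ⊓ 𝐂 β)

variable {α β γ : Sylow p G} {w l : ℕ} {Λ Λ' : Finset (Sylow p G)} {g : G} {Q : Subgroup G}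

theorem IsLn.smul [DecidableEq (Sylow p G)] (h : IsLn w Λ) (g : G) : IsLn w (g • Λ) := by
  obtain ⟨α, β, h1, h2, rfl⟩ := h
  have h3 : ∀ (g : G) (α β : Sylow p G), MulAut.conj g • (𝐂 α ⊓ 𝐂 β) ≤ 𝐂 (g • α) ⊓ 𝐂 (g • β) := by
    rintro g α β _ ⟨y, hy, rfl⟩
    exact ⟨conj_mem_cent hy.1, conj_mem_cent hy.2⟩
  have h4 : 𝐂 (g • α) ⊓ 𝐂 (g • β) = MulAut.conj g • (𝐂 α ⊓ 𝐂 β) := le_antisymm (by
    have := h3 g⁻¹ (g • α) (g • β)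
    rwa [inv_smul_smul, inv_smul_smul, map_inv, ← subset_pointwise_smul_iff] at this) (h3 g α β)
  refine ⟨g • α, g • β, (MulAction.injective g).ne h1, by
    rw [h4, ← h2]; exact card_map_of_injective (MulAut.conj g).injective, ext fun γ => ?_⟩
  rw [← inv_smul_mem_iff, mem_ln, mem_ln, h4]
  refine ⟨fun h => ?_, fun h y hy => ?_⟩
  · rintro _ ⟨y, hy, rfl⟩
    simpa using conj_mem_cent (g := g) (h hy)
  · simpa [mul_assoc] using conj_mem_cent (g := g⁻¹) (h ⟨y, hy, rfl⟩)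

theorem eq_ln (hw : ∀ α β : Sylow p G, α ≠ β → Nat.card ↥(𝐂 α ⊓ 𝐂 β) ≤ w)
    (hΛ : IsLn w Λ) (h1 : α ≠ β) (h2 : α ∈ Λ) (h3 : β ∈ Λ) :
    Nat.card ↥(𝐂 α ⊓ 𝐂 β) = w ∧ Λ = ln p (𝐂 α ⊓ 𝐂 β) := by
  obtain ⟨γ, δ, -, h4, rfl⟩ := hΛ
  rw [← eq_of_le_of_card_ge (le_inf (mem_ln.1 h2) (mem_ln.1 h3)) (h4 ▸ hw α β h1)]
  exact ⟨h4, rfl⟩

theorem ln_eq (hw : ∀ α β : Sylow p G, α ≠ β → Nat.card ↥(𝐂 α ⊓ 𝐂 β) ≤ w)
    (hΛ : IsLn w Λ) (hΛ' : IsLn w Λ') (h1 : α ≠ β) (h2 : α ∈ Λ) (h3 : β ∈ Λ)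
    (h4 : α ∈ Λ') (h5 : β ∈ Λ') : Λ = Λ' :=
  (eq_ln hw hΛ h1 h2 h3).2.trans (eq_ln hw hΛ' h1 h4 h5).2.symm

namespace Geo

variable (h : Geo G p)
include h

theorem le_cent (α : Sylow p G) : (α : Subgroup G) ≤ 𝐂 α :=
  have := (isCyclic_of_prime_card (h.card α)).isMulCommutative
  le_centralizer _

theorem eq_of_fix (h1 : g ∈ α) (h2 : g ≠ 1) (h3 : g • β = β) : β = α := by
  have h4 : g ∈ (β : Subgroup G) := ((α.2.inf_normalizer_sylow β).le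
    ⟨h1, Sylow.smul_eq_iff_mem_normalizer.1 h3⟩).2
  have h5 : ∀ γ : Sylow p G, g ∈ (γ : Subgroup G) → zpowers g = γ := fun γ h5 =>
    eq_of_le_of_card_ge (zpowers_le.2 h5) (by
      rw [h.card, Nat.card_zpowers]
      exact (((Nat.dvd_prime hp.out).1 (h.card γ ▸ orderOf_dvd_natCard _ h5)).resolve_left
        (mt orderOf_eq_one_iff.1 h2)).ge)
  exact Sylow.ext ((h5 β h4).symm.trans (h5 α h1))

theorem exists_gen (α : Sylow p G) : ∃ x ∈ α, x ≠ 1 := by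
  by_contra! h1
  have := h.card α
  rw [(eq_bot_iff_forall _).2 h1, card_bot] at this
  exact hp.out.one_lt.ne this

theorem not_dvd (h1 : α ≠ β) : ¬ p ∣ Nat.card ↥(𝐂 α ⊓ 𝐂 β) := fun h2 => by
  obtain ⟨z, h3, h4⟩ := exists_mem_orderOf_eq_prime hp.out h2
  have h5 : z ∈ α := (((IsPGroup.of_card (G := zpowers z) (n := 1) (by
    rw [Nat.card_zpowers, h4, pow_one])).inf_normalizer_sylow α).le
    ⟨mem_zpowers z, centralizer_le_normalizer _ h3.1⟩).2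
  exact h1 (h.eq_of_fix h5 (fun e => hp.out.one_lt.ne (by rw [← h4, e, orderOf_one]))
    (smul_eq_of_cent h3.2)).symm

/-- A set of Sylow subgroups invariant under `α`. -/
theorem modEq [DecidableEq (Sylow p G)] (h1 : ∀ g ∈ α, g • Λ = Λ) :
    #Λ ≡ if α ∈ Λ then 1 else 0 [MOD p] := by
  have h2 := Perm.ncard_modEq_fixed α.2 (s := (Λ : Set (Sylow p G))) Λ.finite_toSet
    fun u hu x hx => h1 u hu ▸ smul_mem_smul_finset hx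
  obtain ⟨x, h3, h4⟩ := h.exists_gen α
  rw [Set.ncard_coe_finset] at h2
  convert h2
  split_ifs with h5
  · rw [← Set.ncard_singleton α]
    congr 1
    ext β
    exact ⟨by rintro rfl; exact ⟨h5, fun u hu => smul_eq_of_cent (h.le_cent _ hu)⟩,
      fun h6 => h.eq_of_fix h3 h4 (h6.2 x h3)⟩
  · rw [eq_comm, Set.ncard_eq_zero, Set.eq_empty_iff_forall_notMem]
    exact fun β h6 => h5 (h.eq_of_fix h3 h4 (h6.2 x h3) ▸ h6.1)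

theorem smul_ln [DecidableEq (Sylow p G)] (hΛ : IsLn w Λ) (h1 : α ∈ Λ) (h2 : g ∈ α) :
    g • Λ = Λ := by
  obtain ⟨γ, δ, -, -, rfl⟩ := hΛ
  refine eq_of_subset_of_card_le (fun β hβ => ?_) (card_smul_finset _ _).ge
  obtain ⟨β, h3, rfl⟩ := mem_smul_finset.1 hβ
  refine mem_ln.2 fun y hy => ?_
  have := conj_mem_cent (g := g) (mem_ln.1 h3 hy)
  rwa [mem_ln.1 h1 hy g h2, mul_inv_cancel_right y g] at this

theorem ln_modEq (hΛ : IsLn w Λ) : #Λ ≡ 1 [MOD p] ∧ p + 1 ≤ #Λ := by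
  classical
  obtain ⟨α, β, h1, -, h2⟩ := id hΛ
  have h3 : α ∈ Λ := h2 ▸ mem_ln.2 inf_le_left
  have h4 := h.modEq fun g => h.smul_ln hΛ h3
  rw [if_pos h3] at h4
  have h5 : 1 < #Λ := one_lt_card.2 ⟨α, h3, β, h2 ▸ mem_ln.2 inf_le_right, h1⟩
  have := Nat.le_of_dvd (by omega) ((Nat.modEq_iff_dvd' h5.le).1 h4.symm)
  exact ⟨h4, by omega⟩

/-- An `l`-subgroup centralizing a point of a line and fixing the line centralizes the line. -/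
theorem le_of_fix [DecidableEq (Sylow p G)] [hl : Fact l.Prime]
    (hw : ∀ α β : Sylow p G, α ≠ β → Nat.card ↥(𝐂 α ⊓ 𝐂 β) ≤ w) (hΛ : IsLn w Λ) (h1 : α ∈ Λ)
    (hlp : l ≠ p) (hQ : IsPGroup l Q) (h2 : Q ≤ 𝐂 α) (h3 : ∀ g ∈ Q, g • Λ = Λ) (h4 : #Λ = p + 1) :
    Nat.card Q ∣ w ∧ ∀ γ ∈ Λ, Q ≤ 𝐂 γ := by
  obtain ⟨β, h5, h6⟩ := Perm.exists_fixed_of_not_dvd hQ (s := (Λ.erase α : Set (Sylow p G)))
    (fun u hu x hx => by
      rw [mem_coe, mem_erase] at hx ⊢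
      exact ⟨fun e => hx.1 (MulAction.injective u (e.trans (smul_eq_of_cent (h2 hu)).symm)),
        h3 u hu ▸ smul_mem_smul_finset hx.2⟩)
    (by
      rw [Set.ncard_coe_finset, card_erase_of_mem h1, h4, Nat.add_sub_cancel]
      exact fun h5 => hlp ((Nat.prime_dvd_prime_iff_eq hl.out hp.out).1 h5))
  rw [mem_coe, mem_erase] at h5
  have h7 : Q ≤ 𝐂 α ⊓ 𝐂 β := le_inf h2 fun g hg => by
    obtain ⟨k, hk⟩ := hQ ⟨g, hg⟩
    exact h.norm α β g l k hl.out hlp (congrArg Subtype.val hk) (h2 hg) (h6 g hg)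
  obtain ⟨h8, h9⟩ := eq_ln hw hΛ h5.1.symm h1 h5.2
  exact ⟨h8 ▸ card_dvd_of_le h7, fun γ hγ => h7.trans (mem_ln.1 (h9 ▸ hγ))⟩

theorem counts [DecidableEq (Sylow p G)]
    (hw : ∀ α β : Sylow p G, α ≠ β → Nat.card ↥(𝐂 α ⊓ 𝐂 β) ≤ w) (h0 : w ≠ 1) (hΛ : IsLn w Λ)
    {L : Finset (Finset (Sylow p G))} (hL : ∀ Λ, Λ ∈ L ↔ IsLn w Λ) :
    (∀ Λ ∈ L, #Λ = p + 1) ∧ (∀ Λ ∈ L, ∀ Λ' ∈ L, ∃ α ∈ Λ, α ∈ Λ') ∧ ∃ k, 2 ≤ k ∧ k ∣ p + 1 ∧
      (∀ α, #{Λ ∈ L | α ∈ Λ} = k) ∧ #L = 1 + (p + 1) * (k - 1) := by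
  have := Fintype.ofFinite (Sylow p G)
  obtain ⟨α, β, h1, h2, h3⟩ := id hΛ
  have hp2 := hp.out.two_le
  have k1 : ∀ γ δ, #{Λ ∈ L | γ ∈ Λ} ≤ #{Λ ∈ L | δ ∈ Λ} := fun γ δ => by
    obtain ⟨g, rfl⟩ := MulAction.exists_smul_eq G γ δ
    exact card_le_card_of_injOn (g • ·) (fun Λ hΛ => by
      simp only [coe_filter, Set.mem_ofPred_eq, hL] at hΛ ⊢
      exact ⟨hΛ.1.smul g, smul_mem_smul_finset hΛ.2⟩) (MulAction.injective g).injOn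
  obtain ⟨k, hk⟩ : ∃ k, ∀ γ, #{Λ ∈ L | γ ∈ Λ} = k := ⟨_, fun γ => le_antisymm (k1 γ α) (k1 α γ)⟩
  have d1 : ∑ Λ ∈ L, #Λ = Nat.card (Sylow p G) * k := by
    have := sum_card_bipartiteAbove_eq_sum_card_bipartiteBelow (s := L) (t := univ)
      fun Λ (γ : Sylow p G) => γ ∈ Λ
    simpa [bipartiteAbove, bipartiteBelow, hk] using this
  have d2 : ∀ Λ ∈ L, ∑ Λ' ∈ L.erase Λ, #{γ ∈ Λ | γ ∈ Λ'} = #Λ * (k - 1) := fun Λ hΛ => by
    have := sum_card_bipartiteAbove_eq_sum_card_bipartiteBelow (s := L.erase Λ) (t := Λ)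
      fun Λ (γ : Sylow p G) => γ ∈ Λ
    rw [← smul_eq_mul, ← sum_const]
    refine this.trans (sum_congr rfl fun γ hγ => ?_)
    rw [bipartiteBelow, filter_erase, card_erase_of_mem (mem_filter.2 ⟨hΛ, hγ⟩), hk]
  have d3 : ∀ Λ ∈ L, ∀ Λ' ∈ L.erase Λ, #{γ ∈ Λ | γ ∈ Λ'} ≤ 1 := fun Λ hΛ Λ' hΛ' =>
    card_le_one.2 fun γ hγ δ hδ => by_contra fun h4 => ne_of_mem_erase hΛ' (ln_eq hw
      ((hL _).1 (mem_of_mem_erase hΛ')) ((hL _).1 hΛ) h4 (mem_filter.1 hγ).2 (mem_filter.1 hδ).2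
      (mem_filter.1 hγ).1 (mem_filter.1 hδ).1)
  have d4 : ∀ Λ ∈ L, 1 + #Λ * (k - 1) ≤ #L := fun Λ hΛ => by
    have := sum_le_card_nsmul _ _ _ (d3 Λ hΛ)
    rw [d2 Λ hΛ, smul_eq_mul, mul_one] at this
    have := card_erase_add_one hΛ
    omega
  have d5 : #L ≡ k [MOD p] := by
    have h4 := Perm.ncard_modEq_fixed α.2 (s := (L : Set (Finset (Sylow p G)))) L.finite_toSet
      fun u _ x hx => (hL _).2 (((hL _).1 hx).smul u)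
    rw [Set.ncard_coe_finset] at h4
    rw [← hk α, ← Set.ncard_coe_finset {Λ ∈ L | α ∈ Λ}]
    convert h4 using 2
    ext Λ
    simp only [coe_filter, Set.mem_ofPred_eq, mem_coe]
    refine and_congr_right fun hΛ => ⟨fun h5 u => h.smul_ln ((hL _).1 hΛ) h5, fun h5 => ?_⟩
    by_contra h6
    have h7 := h.modEq h5
    rw [if_neg h6] at h7
    exact hp.out.not_dvd_one ((Nat.modEq_zero_iff_dvd).1
      ((h.ln_modEq ((hL _).1 hΛ)).1.symm.trans h7))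
  have d6 : #L * (p + 1) ≤ Nat.card (Sylow p G) * k := by
    rw [← d1, ← smul_eq_mul]
    exact card_nsmul_le_sum _ _ _ fun Λ hΛ => (h.ln_modEq ((hL _).1 hΛ)).2
  have h4 := h.lt
  have h5 : Λ ∈ L := (hL _).2 hΛ
  have h6 : 2 ≤ k := by
    by_contra! h6
    have h7 : 0 < k := hk α ▸ card_pos.2 ⟨Λ, mem_filter.2 ⟨h5, h3 ▸ mem_ln.2 inf_le_left⟩⟩
    obtain rfl : k = 1 := by omega
    have h8 : #L = 1 := (Nat.ModEq.eq_of_lt_of_lt d5 (by nlinarith) hp2)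
    refine h0 (h2 ▸ card_eq_one.2 ((eq_bot_iff_forall _).2 fun g hg => h.faith g fun γ => ?_))
    obtain ⟨Λ', h9⟩ := card_pos.1 ((hk γ).symm ▸ one_pos)
    rw [mem_filter, card_le_one.1 h8.le _ h9.1 _ h5, h3] at h9
    exact mem_ln.1 h9.2 hg
  have h7 : ∀ Λ ∈ L, #Λ = p + 1 := fun Λ hΛ => by
    obtain ⟨h7, h8⟩ := h.ln_modEq ((hL _).1 hΛ)
    obtain ⟨c, hc⟩ := (Nat.modEq_iff_dvd' (by omega)).1 h7.symm
    have h9 := d4 Λ hΛ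
    obtain rfl : c = 1 := by
      rcases c with _ | _ | c
      · omega
      · rfl
      obtain ⟨k, rfl⟩ := Nat.exists_eq_add_of_le' h6
      have h10 : 2 * p + 1 ≤ #Λ := by rw [mul_add, mul_add] at hc; omega
      have h11 : (2 * p + 1) * (k + 1) ≤ #L := (Nat.mul_le_mul_right _ h10).trans (by
        simp only [show k + 2 - 1 = k + 1 from rfl] at h9; omega)
      nlinarith [Nat.mul_le_mul_right (p + 1) h11, Nat.mul_le_mul_right (k + 2) h4.le]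
    omega
  rw [sum_congr rfl h7, sum_const, smul_eq_mul] at d1
  obtain ⟨h8, h9⟩ := geo_arith h4 (card_sylow_modEq_one p G) d5 d1 (h7 Λ h5 ▸ d4 Λ h5) h6 hp2
  refine ⟨h7, fun Λ hΛ Λ' hΛ' => ?_, k, h6, h8, hk, h9⟩
  by_cases h10 : Λ' = Λ
  · obtain ⟨γ, hγ⟩ := card_pos.1 ((h7 Λ hΛ).symm ▸ p.add_one_pos)
    exact ⟨γ, hγ, h10 ▸ hγ⟩
  by_contra! h11
  have := sum_lt_sum (d3 Λ hΛ) ⟨Λ', mem_erase.2 ⟨h10, hΛ'⟩, by rw [filter_eq_empty_iff.2 h11]; simp⟩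
  rw [d2 Λ hΛ, sum_const, card_erase_of_mem hΛ, h9, h7 Λ hΛ] at this
  simp at this

theorem inf_eq_bot (h1 : α ≠ β) : 𝐂 α ⊓ 𝐂 β = ⊥ := by
  classical
  have := Fintype.ofFinite (Sylow p G)
  obtain ⟨⟨α, β⟩, h2, hw⟩ := exists_max_image {z : Sylow p G × Sylow p G | z.1 ≠ z.2}
    (fun z => Nat.card ↥(𝐂 z.1 ⊓ 𝐂 z.2)) ⟨(α, β), by simpa⟩
  replace h2 : α ≠ β := by simpa using h2
  replace hw : ∀ γ δ : Sylow p G, γ ≠ δ → Nat.card ↥(𝐂 γ ⊓ 𝐂 δ) ≤ Nat.card ↥(𝐂 α ⊓ 𝐂 β) :=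
    fun γ δ h => hw (γ, δ) (by simpa)
  refine (card_le_one_iff_eq_bot _).1 ((hw _ _ h1).trans (le_of_eq (by_contra fun h0 => ?_)))
  have hΛ : IsLn _ (ln p (𝐂 α ⊓ 𝐂 β)) := ⟨α, β, h2, rfl, rfl⟩
  have hα : α ∈ ln p (𝐂 α ⊓ 𝐂 β) := mem_ln.2 inf_le_left
  have hnp := h.not_dvd h2
  obtain ⟨d, hd⟩ : p * Nat.card ↥(𝐂 α ⊓ 𝐂 β) ∣ Nat.card (𝐂 α) :=
    (hp.out.coprime_iff_not_dvd.2 hnp).mul_dvd_of_dvd_of_dvd
      ((h.card α).symm.dvd.trans (card_dvd_of_le (h.le_cent α))) (card_dvd_of_le inf_le_left)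
  have hW : ∀ g ∈ 𝐂 α ⊓ 𝐂 β, ∀ γ ∈ ln p (𝐂 α ⊓ 𝐂 β), g ∈ 𝐂 γ := fun g hg γ hγ => mem_ln.1 hγ hg
  have hy : ∀ l : ℕ, l.Prime → l ∣ Nat.card ↥(𝐂 α ⊓ 𝐂 β) → ∀ Λ, IsLn (Nat.card ↥(𝐂 α ⊓ 𝐂 β)) Λ →
      ∃ y : G, orderOf y = l ∧ ∀ γ ∈ Λ, y ∈ 𝐂 γ := by
    rintro l hl h3 _ ⟨γ, δ, -, h4, rfl⟩
    obtain ⟨y, h5, h6⟩ := exists_mem_orderOf_eq_prime hl (h4 ▸ h3)
    exact ⟨y, h6, fun _ h7 => mem_ln.1 h7 h5⟩
  generalize ln p (𝐂 α ⊓ 𝐂 β) = Λ at *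
  have hW' : Nat.card ↥(𝐂 α ⊓ 𝐂 β) ∣ Nat.card ↥(𝐂 α ⊓ MulAction.stabilizer G Λ) :=
    card_dvd_of_le fun g hg => ⟨hg.1, eq_of_subset_of_card_le (fun γ hγ => by
      obtain ⟨γ, h3, rfl⟩ := mem_smul_finset.1 hγ
      exact (smul_eq_of_cent (hW g hg γ h3)).symm ▸ h3) (card_smul_finset _ _).ge⟩
  generalize Nat.card ↥(𝐂 α ⊓ 𝐂 β) = w at *
  obtain ⟨L, hL⟩ : ∃ L : Finset (Finset (Sylow p G)), ∀ Λ, Λ ∈ L ↔ IsLn w Λ :=
    ⟨univ.filter (IsLn w), by simp⟩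
  obtain ⟨c1, c2, k, c3, c4, c5, c6⟩ := h.counts hw h0 hΛ hL
  simp only [hL] at c1 c2
  -- an element centralizing two lines through `α` is trivial
  have e1 : ∀ Λ Λ', IsLn w Λ → IsLn w Λ' → Λ ≠ Λ' → α ∈ Λ → α ∈ Λ' → ∀ g : G, (∀ γ ∈ Λ, g ∈ 𝐂 γ) →
      (∀ γ ∈ Λ', g ∈ 𝐂 γ) → g = 1 := fun Λ Λ' hΛ hΛ' h3 h4 h5 g h6 h7 => h.faith g fun γ => by
    by_cases h8 : γ = α
    · exact h8 ▸ h6 α h4
    obtain ⟨Λ₁, h9, Λ₂, h10, h11⟩ := one_lt_card.1 (c5 γ ▸ c3 :)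
    simp only [mem_filter, hL] at h9 h10
    obtain ⟨M, h12, h13, h14⟩ : ∃ M, IsLn w M ∧ γ ∈ M ∧ α ∉ M := by
      by_contra! h12
      exact h11 (ln_eq hw h9.1 h10.1 h8 h9.2 (h12 _ h9.1 h9.2) h10.2 (h12 _ h10.1 h10.2))
    obtain ⟨δ, h15, h16⟩ := c2 M h12 Λ hΛ
    obtain ⟨ε, h17, h18⟩ := c2 M h12 Λ' hΛ'
    have h19 : δ ≠ ε := fun e => h3 (ln_eq hw hΛ hΛ' (fun e' : δ = α => h14 (e' ▸ h15)) h16 h4
      (e ▸ h18) h5)
    exact mem_ln.1 ((eq_ln hw h12 h19 h15 h17).2.le h13) ⟨h6 δ h16, h7 ε h18⟩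
  have e2 : ∀ {y : G} {l : ℕ}, orderOf y = l → IsPGroup l (zpowers y) := fun hy =>
    IsPGroup.of_card (n := 1) (by rw [Nat.card_zpowers, hy, pow_one])
  have e3 : ∀ {X : Type _} [MulAction G X] {y : G} {x : X}, y • x = x → ∀ g ∈ zpowers y, g • x = x :=
    fun hy => zpowers_le.2 (show _ ∈ MulAction.stabilizer G _ from hy)
  have e4 : ∀ g ∈ 𝐂 α, ∀ M ∈ (L.filter (α ∈ ·) : Set (Finset (Sylow p G))),
      g • M ∈ (L.filter (α ∈ ·) : Set (Finset (Sylow p G))) := fun g hg M hM => by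
    simp only [coe_filter, hL, Set.mem_ofPred_eq] at hM ⊢
    exact ⟨hM.1.smul g, smul_eq_of_cent hg ▸ smul_mem_smul_finset hM.2⟩
  by_cases hd1 : d = 1
  · obtain ⟨l, hl, h3⟩ := Nat.exists_prime_and_dvd h0
    have := Fact.mk hl
    obtain ⟨Λ', h4, h5⟩ := exists_mem_ne (c5 α ▸ c3 :) Λ
    simp only [mem_filter, hL] at h4
    obtain ⟨y, h6, h7⟩ := hy l hl h3 Λ' h4.1
    have h8 : 𝐂 α ⊓ MulAction.stabilizer G Λ = 𝐂 α := eq_of_le_of_card_ge inf_le_left (by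
      rw [hd, hd1, mul_one]
      exact Nat.le_of_dvd Nat.card_pos ((hp.out.coprime_iff_not_dvd.2 hnp).mul_dvd_of_dvd_of_dvd
        ((h.card α).symm.dvd.trans (card_dvd_of_le fun g hg => ⟨h.le_cent α hg,
          MulAction.mem_stabilizer_iff.2 (h.smul_ln hΛ hα hg)⟩)) hW'))
    have h9 := (h.le_of_fix hw hΛ hα (fun e => hnp (e ▸ h3)) (e2 h6) (zpowers_le.2 (h7 α h4.2))
      (e3 (h8.ge (h7 α h4.2)).2) (c1 Λ hΛ)).2
    exact hl.one_lt.ne' (h6 ▸ orderOf_eq_one_iff.2 (e1 Λ' Λ h4.1 hΛ h5 h4.2 hα y h7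
      fun γ hγ => h9 γ hγ (mem_zpowers y)))
  obtain ⟨l, hl, h3⟩ := Nat.exists_prime_and_dvd hd1
  have := Fact.mk hl
  have hlp : l ≠ p := fun e => h.nsq (((pow_two p).symm ▸ mul_dvd_mul (dvd_mul_right p w)
    (e ▸ h3) : p ^ 2 ∣ p * w * d).trans (hd ▸ card_subgroup_dvd_card _))
  have h4 : l ∣ k := by
    by_contra h4
    obtain ⟨Q⟩ : Nonempty (Sylow l (𝐂 α)) := inferInstance
    have h5 := Q.2.map (𝐂 α).subtype
    obtain ⟨M, h6, h7⟩ := Perm.exists_fixed_of_not_dvd h5 (fun u hu => e4 u (map_subtype_le _ hu))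
      (by rwa [Set.ncard_coe_finset, c5])
    simp only [coe_filter, hL, Set.mem_ofPred_eq] at h6
    obtain ⟨c, hc⟩ := (h.le_of_fix hw h6.1 h6.2 hlp h5 (map_subtype_le _) h7 (c1 M h6.1)).1
    rw [card_map_of_injective (subtype_injective _)] at hc
    have h8 := (Q : Subgroup (𝐂 α)).card_mul_index
    rw [hd, hc, mul_left_comm, mul_assoc] at h8
    exact Q.not_dvd_index (Nat.eq_of_mul_eq_mul_left Nat.card_pos h8 ▸ h3.mul_left _)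
  have h5 : ¬ l ∣ w := fun h5 => by
    obtain ⟨y, h6, h7⟩ := hy l hl h5 Λ hΛ
    have h8 := Perm.ncard_modEq_fixed (e2 h6) (Finset.finite_toSet _)
      fun u hu => e4 u (zpowers_le.2 (h7 α hα) hu)
    rw [Set.ncard_coe_finset, c5] at h8
    have h9 : y • Λ = Λ := eq_of_subset_of_card_le (fun γ hγ => by
      obtain ⟨γ, h3, rfl⟩ := mem_smul_finset.1 hγ
      exact (smul_eq_of_cent (h7 γ h3)).symm ▸ h3) (card_smul_finset _ _).ge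
    have h8' := (Nat.modEq_zero_iff_dvd).1 (h8.symm.trans (Nat.modEq_zero_iff_dvd.2 h4))
    obtain ⟨M, h10, h11⟩ := Set.exists_ne_of_one_lt_ncard (hl.one_lt.trans_le (Nat.le_of_dvd
      ((Set.ncard_pos (Set.toFinite _)).2 ⟨Λ, by
        exact ⟨mem_filter.2 ⟨(hL _).2 hΛ, hα⟩, e3 h9⟩⟩) h8')) Λ
    simp only [coe_filter, hL, Set.mem_ofPred_eq] at h10
    have h12 := (h.le_of_fix hw h10.1.1 h10.1.2 hlp (e2 h6) (zpowers_le.2 (h7 α hα)) h10.2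
      (c1 M h10.1.1)).2
    exact hl.one_lt.ne' (h6 ▸ orderOf_eq_one_iff.2 (e1 M Λ h10.1.1 hΛ h11 h10.1.2 hα y
      (fun γ hγ => h12 γ hγ (mem_zpowers y)) h7))
  obtain ⟨y, h6, h7⟩ := exists_mem_orderOf_eq_prime hl (hd ▸ h3.mul_left _)
  have h8 : ∀ M γ, IsLn w M → γ ∈ M → y ∈ 𝐂 γ → y • M ≠ M := fun M γ h8 h9 h10 h11 => h5 (by
    have := (h.le_of_fix hw h8 h9 hlp (e2 h7) (zpowers_le.2 h10) (e3 h11) (c1 M h8)).1
    rwa [Nat.card_zpowers, h7] at this)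
  obtain ⟨M, h9, h10⟩ := Perm.exists_fixed_of_not_dvd (e2 h7)
    (s := (L : Set (Finset (Sylow p G)))) (fun u _ M hM => (hL _).2 (((hL _).1 hM).smul u)) (by
      rw [Set.ncard_coe_finset, c6]
      exact fun h9 => hl.not_dvd_one ((Nat.dvd_add_left ((h4.trans c4).mul_right _)).1 h9))
  replace h9 : IsLn w M := (hL _).1 h9
  replace h10 := h10 y (mem_zpowers y)
  obtain ⟨x, h11, h12⟩ : ∃ x ∈ α, x • M ≠ M := by
    by_contra! h11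
    have h12 := h.modEq h11
    rw [if_neg fun h13 => h8 M α h9 h13 h6 h10] at h12
    exact hp.out.not_dvd_one ((Nat.modEq_zero_iff_dvd).1 ((h.ln_modEq h9).1.symm.trans h12))
  have h13 : y • x • M = x • M := by rw [smul_smul, ← h6 x h11, mul_smul, h10]
  obtain ⟨γ, h14, h15⟩ := c2 M h9 _ (h9.smul x)
  refine h8 M γ h9 h14 (h.norm α γ y l 1 hl hlp (by rw [pow_one, ← h7, pow_orderOf_eq_one]) h6
    (by_contra fun h16 => h12 (ln_eq hw (h9.smul x) h9 h16 ?_ h15 ?_ h14))) h10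
  exacts [h13 ▸ smul_mem_smul_finset h15, h10 ▸ smul_mem_smul_finset h14]

end Geo

end Cfsg.Lib.Np
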