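import Cfsg.Agent.Lib.Np.Three
import Cfsg.Agent.Lib.Np.TI
import Cfsg.Agent.Lib.Clifford.PElt

/-!
# The case where the Sylow subgroup is not self-centralizing, first part
-/

set_option autoImplicit false

namespace Cfsg.Lib.Np

open Cfsg.Lib.Char Cfsg.Lib.Small Cfsg.Lib.Cyc Cfsg.Lib.Clifford Subgroup Finset
open scoped MatrixGroups ComplexConjugate

variable {G : Type*} [Group G] [Finite G] {p e t a b m l : ℕ}
  {S Y A B C D : Finset (IrrCharacter G)}
  {s : IrrCharacter G → ℤ} {δ : ℤ} {χ θ : IrrCharacter G} {g x y u v : G}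

theorem eq_zero_of_norm_lt {φ : G → ℂ} (hφ : IsGeneralizedCharacter G φ)
    (h : ∀ k : ℕ, k.Coprime (Nat.card G) → ‖φ (g ^ k)‖ < 1) : φ g = 0 :=
  (eq_zero_or_norm_eq_one_of_forall_norm_le (hφ.isIntegral g) fun σ => by
    obtain ⟨k, hk, h1⟩ := exists_pow_forall_map_apply G (σ : ℂ →+* ℂ)
    exact (congrArg norm (h1 φ hφ g)).trans_le (h k hk).le).resolve_right
    (by simpa using (h 1 (by simp)).ne)

theorem mul_avgY (h : PB0 p e t S Y s δ) (hθ : θ ∈ Y) (hx : orderOf x = p) (hxy : y * x = x * y)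
    (hy : ¬ p ∣ orderOf y) : p * avg (θ : G → ℂ) (zpowers x) y = (θ : G → ℂ) y + e * δ := by
  have := Fact.mk h.prime
  have := Fintype.ofFinite (zpowers x)
  have hR := (Nat.card_zpowers x).trans hx
  have h1 : (p : ℂ) * fixDim (θ : G → ℂ) (zpowers x) = charDegree (θ : G → ℂ) + e * δ := by
    exact_mod_cast h.fixY hθ hR
  rw [← sub_eq_iff_eq_add', ← add_sub_cancel_left (charDegree (θ : G → ℂ) : ℂ) (e * δ), ← h1,
    sub_eq_sub_iff_sub_eq_sub, ← hR, card_mul_avg, card_mul_fixDim θ.2.isCharacter,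
    ← sum_sub_distrib, sum_eq_single 1 (fun z _ h2 => ?_) (by simp), ← θ.2.apply_one_eq]
  · simp
  · have h3 := orderOf_eq_of_card hR z.2 (by simpa using h2)
    obtain ⟨z, j, rfl⟩ := z
    exact sub_eq_zero.2 (h.apply_mul (.inr hθ) h3 ((show Commute y x from hxy).zpow_right j) hy)

namespace NP

variable (h : NP p e t a b m S Y A B C D s δ θ)
include h

set_option maxHeartbeats 800000 in
theorem shape (hx : orderOf x = p) (hc : Nat.card (centralizer ({x} : Set G)) ≠ p) :
    C = ∅ ∧ B.Nonempty ∧ 3 ≤ a ∧ ∃ b', b = t * b' ∧ e = a * b' ∧ #A < b' ∧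
      ∀ R : Subgroup G, Nat.card R = p → fixDim (θ : G → ℂ) R ≤ b' := by
  have h1 : ∀ χ ∈ S, 1 < charDegree (χ : G → ℂ) → 2 * p ≤ charDegree (χ : G → ℂ) :=
    fun χ hχ h1 => not_lt.1 fun h2 => hc (h.card_centralizer_of_lt h.perf h.core (.inl hχ) h1 h2 hx)
  have h3 := h.a2
  have h4 := h.ab
  have hp := h.hp
  have hm := h.hm
  have h5 := h.five_le
  have h2 : C = ∅ := eq_empty_of_forall_notMem fun χ hχ => by
    have := h1 χ (h.hC χ hχ).1
    rw [(h.hC χ hχ).2.2] at this
    omega
  have h6 : B.Nonempty → 3 ≤ a := fun ⟨χ, hχ⟩ => by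
    have := h1 χ (h.hB χ hχ).1
    rw [(h.hB χ hχ).2.2] at this
    by_contra h6
    obtain rfl : a = 2 := by omega
    omega
  have h7 := h.kdeg
  have h8 := h.cnt
  have h9 := h.deg
  have h10 := h.et
  have ht := h.t_pos
  have hp0 : (p : ℤ) ≠ 0 := by omega
  have h11 : t < p + a := by nlinarith [h.pos]
  rw [h2] at h7 h8 h9
  simp only [card_empty, Nat.cast_zero, zero_mul, sub_zero, add_zero] at h7 h8 h9
  refine ⟨h2, ?_⟩
  rcases h.exc with ⟨rfl, h12⟩ | ⟨h13, rfl, h12 | h12⟩
  · obtain ⟨b', hb⟩ := h.dvd_b ⟨_, h12.symm⟩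
    have h13 : e = a * b' := Nat.eq_of_mul_eq_mul_right ht (by rw [h10, hb]; ring)
    have h14 : charDegree (θ : G → ℂ) = b' * (p + a) :=
      Nat.eq_of_mul_eq_mul_left ht (by rw [h12, hb]; ring)
    have h15 : B.Nonempty := nonempty_iff_ne_empty.2 fun h15 => by
      rw [h15, h14] at h9
      have : (p + a : ℤ) ∣ 1 := ⟨#D * b + b' - #A * m, by simp at h9; linear_combination h9⟩
      have := Int.le_of_dvd one_pos this
      omega
    refine ⟨h15, h6 h15, b', hb, h13, ?_, fun R hR => ?_⟩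
    · have h16 : (#A : ℤ) * (p + a) + #B * (a + b) + b + 1 = b' * (p + a) := by
        refine mul_left_cancel₀ hp0 ?_
        zify at h8 h13
        rw [h14, h13] at h7
        push_cast at h7
        rw [h.pz] at h7 ⊢
        linear_combination h7 + (a * b + 1) * (b + 1) * (h8.trans h13)
      zify
      exact lt_of_mul_lt_mul_right (a := (p + a : ℤ)) (by rw [← h16]; nlinarith) (by positivity)
    · have := h.fixY h.mem hR
      rw [h14, h13] at this
      have h16 : (p : ℤ) * fixDim (θ : G → ℂ) R = p * b' := by rw [this]; push_cast; ring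
      exact_mod_cast (mul_left_cancel₀ hp0 h16).le
  · exfalso
    have h14 := h.dvd_n ⟨_, h12.symm⟩
    obtain ⟨ξ, hξ⟩ : D.Nonempty := nonempty_iff_ne_empty.2 fun h15 => by
      rw [h15] at h9
      simp only [card_empty, Nat.cast_zero, zero_mul, sub_zero] at h9
      exact absurd h9 (by positivity)
    have h15 : (t : ℤ) ∣ a := by exact_mod_cast h.tD hξ
    have h16 : B = ∅ := eq_empty_of_forall_notMem fun χ hχ => by
      have h16 : (t : ℤ) ∣ b := by exact_mod_cast h.tB hχ
      have := Int.le_of_dvd one_pos (show (t : ℤ) ∣ 1 by simpa using (h14.add h16).sub h15)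
      omega
    rw [h16] at h9
    have : (p + a : ℤ) ∣ t := ⟨t * #D * b - t * #A * m - m, by
      zify at h12; simp at h9; linear_combination t * h9 - h12⟩
    have := Int.le_of_dvd (by omega) this
    omega
  · obtain ⟨a', ha⟩ := h.dvd_a ⟨_, h12.symm⟩
    have h14 : charDegree (θ : G → ℂ) = a' * m :=
      Nat.eq_of_mul_eq_mul_left ht (by rw [h12, ha]; ring)
    have h15 : B.Nonempty := nonempty_iff_ne_empty.2 fun h15 => by
      rw [h15] at h9
      have h16 : (p + a : ℤ) ∣ a ^ 2 - a - 1 - t := ⟨t * #A * m - t * #D * b + a - 1, by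
        zify at h12
        simp at h9
        rw [h.mz] at h12 h9 ⊢
        rw [h.pz] at h9 ⊢
        linear_combination -t * h9 + h12⟩
      have h17 : t ≤ a := Nat.le_of_dvd (by omega) ⟨_, ha⟩
      have h18 := Int.eq_zero_of_abs_lt_dvd h16 (abs_lt.2 ⟨by nlinarith, by nlinarith⟩)
      rcases Nat.eq_or_lt_of_le h3 with rfl | h19
      · omega
      · zify at h17 h19
        nlinarith
    obtain ⟨χ, hχ⟩ := id h15
    obtain ⟨b', hb⟩ := h.tB hχ
    have h16 : e = a * b' := Nat.eq_of_mul_eq_mul_right ht (by rw [h10, hb]; ring)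
    have h17 : e = a' * b := by rw [h16, ha, hb]; ring
    refine ⟨h15, h6 h15, b', hb, h16, ?_, fun R hR => ?_⟩
    · have h18 : (#A : ℤ) * (p + a) + #B * (a + b) + a' + b' + b + 1 = b' * (p + a) := by
        refine mul_left_cancel₀ hp0 ?_
        zify at h8 h16 h17
        rw [h14, h17] at h7
        push_cast at h7
        rw [h.mz] at h7
        rw [h.pz] at h7 ⊢
        linear_combination h7 + (a * b + 1) * (b + 1) * (h8.trans h16)
      zify
      exact lt_of_mul_lt_mul_right (a := (p + a : ℤ)) (by rw [← h18]; nlinarith) (by positivity)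
    · have := h.fixY h.mem hR
      rw [h14, h17] at this
      have h18 : (p : ℤ) * fixDim (θ : G → ℂ) R = p * a' := by
        rw [this]; push_cast; rw [h.mz, h.pz]; ring
      have h19 : fixDim (θ : G → ℂ) R = a' := by exact_mod_cast mul_left_cancel₀ hp0 h18
      exact h19 ▸ Nat.le_of_mul_le_mul_left (ha ▸ hb ▸ h4) ht

/-- Elements of prime power order centralizing one Sylow subgroup and normalizing another one. -/
theorem mem_cent (hx : orderOf x = p) (hc : Nat.card (centralizer ({x} : Set G)) ≠ p)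
    (hy : orderOf y = p) (hl : l.Prime) (hlp : l ≠ p) {k : ℕ} (hg : g ^ l ^ k = 1)
    (h1 : g ∈ centralizer ({x} : Set G)) (h2 : g ∈ normalizer ((zpowers y : Subgroup G) : Set G)) :
    g ∈ centralizer ({y} : Set G) := by
  have := Fact.mk h.prime
  have := Fact.mk hl
  by_contra h3
  obtain ⟨-, ⟨χ, hχ⟩, h4, b', h5, h6, -, h7⟩ := h.shape hx hc
  have hR := (Nat.card_zpowers y).trans hy
  have h8 : ∀ j, ¬ p ∣ orderOf (g ^ j) := fun j h8 => hlp ((Nat.prime_dvd_prime_iff_eq h.prime hl).1
    (h.prime.dvd_of_dvd_pow ((h8.trans (orderOf_pow_dvd j)).trans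
      (orderOf_dvd_of_pow_eq_one hg)))).symm
  have h9 : ∀ (ψ : IrrCharacter G) (j : ℕ), j.Coprime (Nat.card (centralizer ({x} : Set G))) →
      ‖(ψ : G → ℂ) (g ^ j)‖ ≤ fixDim (ψ : G → ℂ) (zpowers y) := fun ψ j hj => by
    rw [← avg_eq_of_fpf ψ.2.isClassFunction (pow_mem h2 j) fun z hz h9 => by_contra fun h10 => h3 ?_]
    · exact norm_avg_le ψ.2.isCharacter (pow_mem h2 j)
    refine zpowers_le.2 (show g ^ j ∈ centralizer ({y} : Set G) from ?_) (mem_zpowers_pow_iff.2
      (hj.coprime_dvd_right (orderOf_dvd_natCard _ h1)))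
    rw [← centralizer_zpowers, eq_zpowers_of_card hR hz h10, centralizer_zpowers]
    exact mem_centralizer_singleton_iff.2 h9.symm
  have hp : (p : ℝ) = a * b + 1 := by exact_mod_cast h.hp
  have h10 : ∀ {φ : centralizer ({x} : Set G) → ℂ} (ψ : IrrCharacter G) (c : ℂ),
      IsGeneralizedCharacter _ φ → (∀ j, p * φ (⟨g, h1⟩ ^ j) = (ψ : G → ℂ) (g ^ j) - c) →
      fixDim (ψ : G → ℂ) (zpowers y) + ‖c‖ < p → (ψ : G → ℂ) g = c := fun ψ c hφ h10 h11 => by
    have h12 := h10 1
    rw [pow_one, eq_zero_of_norm_lt hφ fun j hj => ?_, pow_one, mul_zero, eq_comm, sub_eq_zero]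
      at h12
    · exact h12
    have h13 := (congrArg norm (h10 j)).trans_le (norm_sub_le _ _)
    rw [norm_mul, Complex.norm_natCast] at h13
    exact lt_of_mul_lt_mul_left (a := (p : ℝ)) (by linarith [h9 ψ j hj]) p.cast_nonneg
  have h11 := isCharacter_avg (A := zpowers x) θ.2.isCharacter
    ((centralizer_zpowers x).ge.trans (centralizer_le_normalizer _))
  have h12 := fun j => mul_avgY h.toPB0 h.mem hx (mem_centralizer_singleton_iff.1 (pow_mem h1 j))
    (h8 j)
  have h13 : (fixDim (θ : G → ℂ) (zpowers y) : ℝ) ≤ b' := by exact_mod_cast h7 _ hR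
  have h14 : ‖(e : ℂ) * δ‖ = a * b' := by rcases h.sign with e | e <;> simp [e, h6]
  have ha : (3 : ℝ) ≤ a := by exact_mod_cast h4
  have hb : (a : ℝ) ≤ b := by exact_mod_cast h.ab
  rcases Nat.eq_or_lt_of_le (show 1 ≤ t from h.t_pos) with rfl | ht
  · obtain ⟨rfl, h15⟩ := h.exc.resolve_right (by omega)
    rw [one_mul] at h5 h15
    subst h5
    have h16 := h10 θ (-1) (h11.add isCharacter_one).isGeneralizedCharacter (fun j => by
      have := h12 j
      rw [h6] at this
      simp only [Pi.add_apply, SubmonoidClass.coe_pow, mul_add, this]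
      rw [h.hp]; push_cast; ring) (by simp; nlinarith)
    obtain ⟨φ, h17, h18⟩ := h.exists_iso (h.hB χ hχ).1 hx
    have h19 := h10 χ 1 h17.isGeneralizedCharacter (fun j => by
      simpa [(h.hB χ hχ).2.1] using h18 (⟨g, h1⟩ ^ j) (h8 j)) (by
        rw [h.fixB hχ hR]; simp; nlinarith)
    have h20 := int_dvd_sub_of_pow_eq_one θ.2.isGeneralizedCharacter hg (m := -1)
      (n := charDegree (θ : G → ℂ)) (by simpa using h16) (by simpa using θ.2.apply_one_eq)
    have h21 := int_dvd_sub_of_pow_eq_one χ.2.isGeneralizedCharacter hg (m := 1)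
      (n := charDegree (χ : G → ℂ)) (by simpa using h19) (by simpa using χ.2.apply_one_eq)
    have h22 : ¬ (l : ℤ) ∣ p := fun h22 => hlp ((Nat.prime_dvd_prime_iff_eq hl h.prime).1
      (by exact_mod_cast h22))
    have h23 := Nat.prime_iff_prime_int.1 hl
    rw [h15, show ((b * (p + a) : ℕ) : ℤ) - -1 = p * (b + 1) by push_cast; rw [h.pz]; ring] at h20
    rw [(h.hB χ hχ).2.2, show ((a * m : ℕ) : ℤ) - 1 = p * (a - 1) by
      push_cast; rw [h.mz, h.pz]; ring] at h21
    have h24 := (h23.dvd_or_dvd h20).resolve_left h22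
    have h25 := (h23.dvd_or_dvd h21).resolve_left h22
    have h26 : l ∣ a * b := by
      by_contra h26
      let q := (centralizer ({y} : Set G)).subgroupOf (normalizer ((zpowers y : Subgroup G) : Set G))
      have h27 : q.Normal := by
        simp only [q, ← centralizer_zpowers y]; infer_instance
      have h28 := pow_index_mem (H := q) (⟨g, h2⟩ : normalizer ((zpowers y : Subgroup G) : Set G))
      rw [show q.index = a * b from (h.relIndex_eq hy).trans h6] at h28
      exact h3 (zpowers_le.2 (show g ^ (a * b) ∈ centralizer ({y} : Set G) from h28)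
        (mem_zpowers_pow_iff.2 (((hl.coprime_iff_not_dvd.2 h26).symm.pow_right k).coprime_dvd_right
          (orderOf_dvd_of_pow_eq_one hg))))
    refine h23.not_dvd_one ?_
    rcases h23.dvd_or_dvd (show (l : ℤ) ∣ a * b by exact_mod_cast h26) with h27 | h27
    · simpa using h27.sub h25
    · simpa using h24.sub h27
  · have ht' : (2 : ℝ) ≤ t := by exact_mod_cast ht
    have h15 : (b : ℝ) = t * b' := by exact_mod_cast h5
    have hb' : (0 : ℝ) < b' := by nlinarith
    have h16 := h10 θ (-(e * δ)) h11.isGeneralizedCharacter (fun j => by simpa using h12 j) (by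
      rw [norm_neg, h14, hp, h15]
      nlinarith [mul_le_mul_of_nonneg_left ht' (show (0 : ℝ) ≤ a * b' by positivity)])
    have h17 := h9 θ 1 (by simp)
    rw [pow_one, h16, norm_neg, h14] at h17
    nlinarith

end NP

end Cfsg.Lib.Np
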