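import Cfsg.Agent.Lib.Np.Big

/-!
# The self-centralizing case, conclusion
-/

set_option autoImplicit false

namespace Cfsg.Lib.Np

open Cfsg.Lib.Char Cfsg.Lib.Small Cfsg.Lib.Cyc Subgroup Finset
open scoped MatrixGroups ComplexConjugate

variable {G : Type*} [Group G] [Finite G] {p e t a b m l : ℕ}
  {S Y A B C D : Finset (IrrCharacter G)}
  {s : IrrCharacter G → ℤ} {δ : ℤ} {χ θ : IrrCharacter G} {g x y u v : G}

set_option maxHeartbeats 600000 in
theorem NP.selfCent (h : NP p e t a b m S Y A B C D s δ θ) (hx : orderOf x = p)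
    (hc : Nat.card (centralizer ({x} : Set G)) = p) :
    (a = 2 ∧ ∃ χ θ, Tri G p (p + 1) (p + 2) χ θ) ∨ a = 3 ∧ b = 4 ∧ Nat.card G = 5616 := by
  classical
  obtain ⟨h1, h2⟩ := h.exc.resolve_right fun h1 => h1.2.2.elim
    (fun h2 => h.not_two hx hc h1.2.1 h2 h1.1) fun h2 => h.not_three hx hc h1.2.1 h2 h1.1
  obtain ⟨b', hb⟩ := h.dvd_b ⟨_, h2.symm⟩
  have h3 := h.a2
  have h4 := h.ab
  have h5 : e = a * b' := Nat.eq_of_mul_eq_mul_right h.t_pos (by rw [h.et, hb]; ring)
  have h6 : charDegree (θ : G → ℂ) = b' * (p + a) :=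
    Nat.eq_of_mul_eq_mul_left h.t_pos (by rw [h2, hb]; ring)
  have h7 := h.kdeg
  have h8 := h.cnt
  have h9 := h.card hx hc
  rw [h.card_A hx hc] at h7 h8
  have h10 : (a : ℤ) * #B + 1 = b * #D + b' + a * b' := by
    refine mul_left_cancel₀ (show (p : ℤ) ≠ 0 by have := h.five_le; omega) ?_
    zify at h8 h5
    rw [h1, h6] at h7
    push_cast at h7
    rw [h5] at h7
    linear_combination h7 + p * (h8.trans h5)
  have h14 : ∀ q : ℕ, q.Prime → q ∣ a → ¬ q ∣ b' := fun q hq h14 h15 => hq.not_dvd_one (by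
    have h16 : (q : ℤ) ∣ a := by exact_mod_cast h14
    have h17 : (q : ℤ) ∣ b' := by exact_mod_cast h15
    have h18 : (q : ℤ) ∣ b := by rw [hb]; exact_mod_cast h15.mul_left t
    have : (q : ℤ) ∣ 1 := by
      rw [show (1 : ℤ) = b * #D + b' + a * b' - a * #B by linear_combination h10]
      exact (((h18.mul_right _).add h17).add (h16.mul_right _)).sub (h16.mul_right _)
    exact_mod_cast this)
  have h15 : ∀ χ ∈ B, ∀ (q : ℕ) (y : G), q.Prime → q ∣ a → q ∣ orderOf y → (χ : G → ℂ) y = 0 :=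
    fun χ hχ q y hq h15 h16 => vanish χ.2 (k := p * (p + a) * b')
      (by rw [h9, (h.hB χ hχ).2.2, h5]; ring) hq (fun h17 =>
        (hq.dvd_mul.1 h17).elim (h.ndvd_a hq h15) (h14 q hq h15)) h16
  obtain ⟨u, h16, h17, h18⟩ := h.exists_E hx hc
  rcases Nat.eq_or_lt_of_le (show 1 ≤ b' from Nat.pos_of_ne_zero (by rintro rfl; omega)) with
    rfl | h11
  swap
  · exfalso
    obtain ⟨l, hl, h12⟩ := Nat.exists_prime_and_dvd h11.ne'
    obtain ⟨k, hk, h13⟩ := Nat.exists_prime_and_dvd (show a ≠ 1 by omega)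
    obtain ⟨h18, h19⟩ := h18 1 (by rw [h5]; intro h; have := Nat.le_of_dvd one_pos h; nlinarith)
    rw [pow_one] at h18 h19
    have h20 : ¬ l ∣ p * m * a := fun h20 =>
      (hl.dvd_mul.1 h20).elim (h.ndvd_b hl (hb ▸ h12.mul_left t)) fun h21 => h14 l hl h21 h12
    have h21 := h.not_vanish hx hc h16 h18 h19 fun χ hχ => by
      obtain ⟨c, hc⟩ := h.tD hχ
      exact vanish χ.2 (k := p * m * c) (by rw [h9, (h.hD χ hχ).2.2, h5, hb, hc]; ring) hl
        (fun h22 => h20 (h22.trans (mul_dvd_mul_left _ ⟨t, by rw [hc, mul_comm]⟩)))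
        (h17 ▸ h5 ▸ h12.mul_left _)
    rw [vanish θ.2 (k := p * m * a) (by rw [h9, h6, h5]; ring) hl h20
      (h17 ▸ h5 ▸ h12.mul_left _), sum_eq_zero fun χ hχ => h15 χ hχ k u hk h13
      (h17 ▸ h5 ▸ h13.mul_right _)] at h21
    simp at h21
  rw [mul_one] at hb h5
  rw [one_mul] at h6
  subst hb h5
  have hp := h.hp
  have hm := h.hm
  rcases D.eq_empty_or_nonempty with rfl | ⟨ξ, hξ⟩
  swap
  · exfalso
    obtain rfl : b = e := le_antisymm (Nat.le_of_dvd (by omega) (h.tD hξ)) h4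
    obtain ⟨χ, hχ⟩ : B.Nonempty := card_pos.1 (Nat.pos_of_ne_zero fun h19 => by
      rw [h19] at h10
      push_cast at h10
      nlinarith)
    have h19 : Even b := by
      by_contra h19
      have := ((Nat.not_even_iff_odd.1 h19).mul (Nat.not_even_iff_odd.1 h19)).add_one
      rw [← hp, h.prime.even_iff] at this
      nlinarith
    have h20 := two_mul_dvd_of_vanish h.perf χ.2.isCharacter h19 h.pos.ne'
      (h17 ▸ pow_orderOf_eq_one u) fun k h20 h21 => by
        obtain ⟨q, hq, h22⟩ := Nat.exists_prime_and_dvd (n := orderOf (u ^ k)) fun h22 =>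
          Nat.not_dvd_of_pos_of_lt h20 h21 (h17 ▸ orderOf_dvd_iff_pow_eq_one.2
            (orderOf_eq_one_iff.1 h22))
        exact h15 χ hχ q _ hq (h17 ▸ h22.trans (orderOf_pow_dvd k)) h22
    rw [(h.hB χ hχ).2.2, mul_comm 2] at h20
    have h21 := Nat.dvd_of_mul_dvd_mul_left h.pos h20
    have h22 := (h19.mul_right b).two_dvd
    have := h19.two_dvd
    omega
  have h19 : #B = 1 := Nat.eq_of_mul_eq_mul_left h.pos (by
    zify; simp at h10; linear_combination h10)
  rw [h19, card_empty] at h8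
  rcases Nat.eq_or_lt_of_le h3 with rfl | h20
  · obtain ⟨χ, rfl⟩ := card_eq_one.1 h19
    have h20 := h.hB χ (mem_singleton_self χ)
    refine .inl ⟨rfl, χ, θ, h.prime, by rw [h9, show p + 1 = 2 * m by omega]; ring,
      Nat.Coprime.mul_right (by simp) (by simp [show p + 2 = p + 1 + 1 from rfl]),
      Nat.Coprime.mul_right (by simp [show p + 2 = p + 1 + 1 from rfl]) (by
        simpa using (Nat.coprime_primes Nat.prime_two h.prime).2 (by omega)), χ.2, θ.2, by omega, h6,
      fun g hg => ⟨orderOf_eq_of_selfCent h.toPB0 hx hc hg, by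
        simp [h.singS χ h20.1 g hg, h20.2.1]⟩, 1, -1, by simp, fun g hg => ?_⟩
    have := h.reg2 hg
    rw [card_eq_zero.1 (h.card_A hx hc), card_eq_zero.1 (show #C = 0 by omega), h1] at this
    simpa using this
  obtain ⟨ξ, hξ⟩ : C.Nonempty := card_pos.1 (by omega)
  obtain ⟨h21, h22⟩ := h.tC hξ
  have h23 : b = e + 1 := by
    have h23 : b ∣ e + 1 := by exact_mod_cast (show (b : ℤ) ∣ e + 1 by simpa using h22.add dvd_rfl)
    obtain ⟨c, hc⟩ := h23
    obtain rfl : c = 1 := by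
      rcases c with _ | _ | c
      · omega
      · rfl
      · nlinarith
    omega
  have h24 := h.big hx hc h1 h23 rfl (by rw [h6, hp, h23]; ring) rfl (Nat.odd_iff.2 (by omega))
  obtain rfl : e = 3 := by omega
  subst h23
  obtain rfl : m = 9 := by omega
  exact .inr ⟨rfl, rfl, by rw [h9, hp]⟩

end Cfsg.Lib.Np
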